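import Mathlib
import Cfsg.Agent.H34.SymEight.Eight
import Cfsg.Agent.H34.SymEight.Basic
import Cfsg.Agent.H91.SymEight.Character

/-!
# The copy of the symmetric group of degree eight

When the centraliser of `c` is twice the symmetric group of degree six, the group contains a copy
of the symmetric group of degree eight with controlled transpositions.
-/

set_option autoImplicit false
set_option maxRecDepth 10000

namespace Cfsg.Agent.H91.SymEight

open Equiv Cfsg.Agent.H34.SymEight

/-- The first six points. -/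
def e6 : Fin 6 ≃ {x : Fin 8 // (x : ℕ) < 6} where
  toFun i := ⟨⟨i, by omega⟩, i.2⟩
  invFun x := ⟨x.1, x.2⟩
  left_inv _ := rfl
  right_inv _ := rfl

/-- The last five points. -/
def e5 : Fin 5 ≃ {x : Fin 8 // 3 ≤ (x : ℕ)} where
  toFun i := ⟨⟨(i : ℕ) + 3, by omega⟩, by simp⟩
  invFun x := ⟨(x.1 : ℕ) - 3, by omega⟩
  left_inv i := Fin.ext (by simp)
  right_inv x := by
    apply Subtype.ext
    apply Fin.ext
    have := x.2
    simp only
    omega

/-- The first three points. -/
def e3 : Fin 3 ≃ {x : Fin 8 // (x : ℕ) < 3} where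
  toFun i := ⟨⟨i, by omega⟩, i.2⟩
  invFun x := ⟨x.1, x.2⟩
  left_inv _ := rfl
  right_inv _ := rfl

/-- The position of a generator of the last five points. -/
def up (k : Fin 4) : Fin 7 := ⟨(k : ℕ) + 3, by omega⟩

def j6 : P6 →* Perm (Fin 8) := Perm.extendDomainHom e6
def j5 : Perm (Fin 5) →* Perm (Fin 8) := Perm.extendDomainHom e5
def j3 : Perm (Fin 3) →* Perm (Fin 8) := Perm.extendDomainHom e3

theorem j6_adj : ∀ i : Fin 5,
    j6 (swap i.castSucc i.succ) =
      swap ((Fin.castLE (by norm_num) i : Fin 7)).castSucc (Fin.castLE (by norm_num) i : Fin 7).succ := by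
  decide +kernel

theorem j5_adj : ∀ i : Fin 4,
    j5 (swap i.castSucc i.succ) =
      swap (up i).castSucc (up i).succ := by
  decide +kernel

theorem j3_adj : ∀ i : Fin 2,
    j3 (swap i.castSucc i.succ) = j6 (swap (Fin.castLE (by norm_num) i : Fin 5).castSucc
      (Fin.castLE (by norm_num) i : Fin 5).succ) := by
  decide +kernel

theorem j5_c5 : j5 c5 = swap 6 7 := by decide +kernel
theorem j3_u3 : j3 u3 = j6 pU := by decide +kernel
theorem j5_t5 : j5 t5 = j6 pV := by decide +kernel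

theorem swap_swap : ∀ a b c d : Fin 6, a ≠ b → c ≠ d →
    swap a b * swap c d = swap c d * swap a b → swap a b ≠ swap c d →
    a ≠ c ∧ a ≠ d ∧ b ≠ c ∧ b ≠ d := by decide +kernel

theorem swap_meet : ∀ a b c d : Fin 6, a ≠ b → c ≠ d →
    swap a b * swap c d ≠ swap c d * swap a b →
    a = c ∨ a = d ∨ b = c ∨ b = d := by decide +kernel

/-- Four transpositions: a chain of two steps and a transposition away from both ends. -/
theorem comm_of_pattern {p r m e : P6} (hp : p.IsSwap) (hr : r.IsSwap) (hm : m.IsSwap)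
    (he : e.IsSwap) (hpr : p * r = r * p) (hpr' : p ≠ r) (hpe : p * e = e * p) (hpe' : p ≠ e)
    (hre : r * e = e * r) (hre' : r ≠ e) (hrm : r * m ≠ m * r) (hme : m * e ≠ e * m) :
    p * m = m * p := by
  obtain ⟨a, b, hab, rfl⟩ := hp
  obtain ⟨c, d, hcd, rfl⟩ := hr
  obtain ⟨x, y, hxy, rfl⟩ := hm
  obtain ⟨u, v, huv, rfl⟩ := he
  obtain ⟨h1, h2, h3, h4⟩ := swap_swap a b c d hab hcd hpr hpr'
  obtain ⟨k1, k2, k3, k4⟩ := swap_swap a b u v hab huv hpe hpe'
  obtain ⟨l1, l2, l3, l4⟩ := swap_swap c d u v hcd huv hre hre'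
  have hm1 := swap_meet c d x y hcd hxy hrm
  have hm2 := swap_meet x y u v hxy huv hme
  by_contra hne
  rcases swap_meet a b x y hab hxy hne with h | h | h | h <;> subst h <;>
    rcases hm1 with h | h | h | h <;> rcases hm2 with h' | h' | h' | h' <;> subst_vars <;> contradiction

theorem invol_six {x : P6} (hx : x * x = 1) (hx1 : x ≠ 1) :
    x.IsSwap ∨ IsConj (pA * pB) x ∨ IsConj (pA * pB * pE) x := by
  rcases invol_cases hx hx1 with h | h | h
  · refine Or.inl ?_
    rw [← Perm.card_support_eq_two, ← Perm.sum_cycleType,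
      ← Perm.isConj_iff_cycleType_eq.1 h, ct_A]
    rfl
  · exact Or.inr (Or.inl h)
  · exact Or.inr (Or.inr h)

theorem ct8_AB : (j6 (pA * pB)).cycleType = {2, 2} := by decide +kernel
theorem ct8_ABE : (j6 (pA * pB * pE)).cycleType = {2, 2, 2} := by decide +kernel
theorem ct8_ABEC : (j6 (pA * pB * pE) * swap 6 7).cycleType = {2, 2, 2, 2} := by decide +kernel
theorem ct8_U : (j6 pU).cycleType = {3} := by decide +kernel
theorem ct8_UV : (j6 (pU * pV)).cycleType = {3, 3} := by decide +kernel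

theorem invol_eight {x : Perm (Fin 8)} (hx : x * x = 1) (hx1 : x ≠ 1) :
    x.IsSwap ∨ IsConj (j6 (pA * pB)) x ∨ IsConj (j6 (pA * pB * pE)) x ∨
      IsConj (j6 (pA * pB * pE) * swap 6 7) x := by
  have : Fact (Nat.Prime 2) := ⟨Nat.prime_two⟩
  have ho : orderOf x = 2 := orderOf_eq_prime (by rw [pow_two, hx]) hx1
  obtain ⟨n, hn⟩ := Perm.cycleType_prime_order (ho.symm ▸ Nat.prime_two)
  rw [ho] at hn
  have hs := Perm.sum_cycleType x
  have hle : x.support.card ≤ 8 := (Finset.card_le_univ _).trans (Fintype.card_fin 8).le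
  rw [hn, Multiset.sum_replicate, smul_eq_mul] at hs
  rcases n with _ | _ | _ | _ | n
  · exact Or.inl (Perm.card_support_eq_two.1 (by omega))
  · exact Or.inr (Or.inl (Perm.isConj_iff_cycleType_eq.2 (by rw [hn, ct8_AB]; rfl)))
  · exact Or.inr (Or.inr (Or.inl (Perm.isConj_iff_cycleType_eq.2 (by rw [hn, ct8_ABE]; rfl))))
  · exact Or.inr (Or.inr (Or.inr (Perm.isConj_iff_cycleType_eq.2 (by rw [hn, ct8_ABEC]; rfl))))
  · omega

theorem three_eight {x : Perm (Fin 8)} (hx : x ^ 3 = 1) (hx1 : x ≠ 1) :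
    IsConj (j6 pU) x ∨ IsConj (j6 (pU * pV)) x := by
  have : Fact (Nat.Prime 3) := ⟨Nat.prime_three⟩
  have ho : orderOf x = 3 := orderOf_eq_prime hx hx1
  obtain ⟨n, hn⟩ := Perm.cycleType_prime_order (ho.symm ▸ Nat.prime_three)
  rw [ho] at hn
  have hs := Perm.sum_cycleType x
  have hle : x.support.card ≤ 8 := (Finset.card_le_univ _).trans (Fintype.card_fin 8).le
  rw [hn, Multiset.sum_replicate, smul_eq_mul] at hs
  rcases n with _ | _ | n
  · exact Or.inl (Perm.isConj_iff_cycleType_eq.2 (by rw [hn, ct8_U]; rfl))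
  · exact Or.inr (Perm.isConj_iff_cycleType_eq.2 (by rw [hn, ct8_UV]; rfl))
  · omega

/-- A homomorphism from the symmetric group of degree eight not killing a 3-cycle is injective. -/
theorem injective_eight {G : Type*} [Group G] (f : Perm (Fin 8) →* G) (h : f (j6 pU) ≠ 1) :
    Function.Injective f := by
  have : IsSimpleGroup (alternatingGroup (Fin 8)) := alternatingGroup.isSimpleGroup (by simp)
  have hbot : ∀ x, f x = 1 → Perm.sign x = 1 → x = 1 := by
    rcases IsSimpleGroup.eq_bot_or_eq_top_of_normal (f.ker.subgroupOf (alternatingGroup (Fin 8)))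
      inferInstance with hb | ht
    · intro x hx hs
      have : (⟨x, Perm.mem_alternatingGroup.2 hs⟩ : alternatingGroup (Fin 8)) ∈
          f.ker.subgroupOf (alternatingGroup (Fin 8)) := hx
      rw [hb, Subgroup.mem_bot] at this
      exact congrArg Subtype.val this
    · exfalso
      apply h
      have hm : (⟨j6 pU, Perm.mem_alternatingGroup.2 (by decide +kernel)⟩ :
          alternatingGroup (Fin 8)) ∈ f.ker.subgroupOf (alternatingGroup (Fin 8)) :=
        ht ▸ Subgroup.mem_top _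
      exact hm
  rw [injective_iff_map_eq_one]
  intro x hx
  have hcomm : ∀ g, x * g = g * x := by
    intro g
    have h1 := hbot (x * g * x⁻¹ * g⁻¹) (by simp [hx])
      (by simp only [map_mul, map_inv]; rw [mul_inv_cancel_comm, mul_inv_cancel])
    rw [mul_inv_eq_one, mul_inv_eq_iff_eq_mul] at h1
    exact h1
  apply Equiv.ext
  intro a
  by_contra hne
  obtain ⟨b, hb⟩ : ∃ b, b ∉ ({a, x a} : Finset (Fin 8)) := by
    by_contra hcon
    push Not at hcon
    have := Finset.card_le_card (show (Finset.univ : Finset (Fin 8)) ⊆ {a, x a} from fun b _ => hcon b)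
    have := this.trans Finset.card_le_two
    simp at this
  simp only [Finset.mem_insert, Finset.mem_singleton, not_or] at hb
  have h1 := DFunLike.congr_fun (hcomm (swap a b)) a
  simp only [Perm.mul_apply, swap_apply_left] at h1
  rw [swap_apply_of_ne_of_ne (by exact hne) (Ne.symm hb.2)] at h1
  exact hb.1 (x.injective h1)

namespace Split

variable {G : Type*} [Group G] {d : Data G} (sp : Split d)

include sp

theorem not_fused_double : ¬ Fused d (sp.sec (pA * pB)) :=
  sp.not_fused_square (k := sp.sec pK) (by rw [← map_mul, pK_sq])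

variable [Finite G]

theorem fused_swap {w : G} (hw : Fused d w) (hc : Commute w d.c) (hne : w ≠ d.c) :
    ∃ q : P6, q.IsSwap ∧ w = sp.sec q := by
  rcases sp.fused_cases hw hc with h | ⟨q, rfl⟩
  · exact absurd h hne
  refine ⟨q, ?_, rfl⟩
  have hqq : q * q = 1 := by
    obtain ⟨h, e⟩ := hw
    apply sp.sec_inj
    rw [map_mul, map_one, e]
    calc _ = h * (d.c * d.c) * h⁻¹ := by group
      _ = 1 := by rw [c_sq]; group
  have hq1 : q ≠ 1 := by
    rintro rfl
    obtain ⟨h, e⟩ := hw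
    rw [map_one, eq_comm, conj_eq_one_iff] at e
    exact c_ne_one d e
  have move : ∀ a k : P6, k * a * k⁻¹ = q → Fused d (sp.sec a) := by
    intro a k hk
    have := fused_conj hw (sp.sec k⁻¹)
    rw [← map_inv, ← map_mul, ← map_mul, ← hk] at this
    rwa [show k⁻¹ * (k * a * k⁻¹) * k⁻¹⁻¹ = a by group] at this
  rcases invol_six hqq hq1 with h | h | h
  · exact h
  · obtain ⟨k, hk⟩ := isConj_iff.1 h
    exact absurd (move _ k hk) sp.not_fused_double
  · obtain ⟨k, hk⟩ := isConj_iff.1 h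
    exact absurd (move _ k hk) (sp.not_fused_triple _ (Or.inl rfl))

theorem comm_step : Commute (sp.sec (swap 2 3)) (d.ι (swap 2 3)) := by
  obtain ⟨h, hh⟩ := sp.fused_s
  set g := h⁻¹ with hg
  have hgs : g * d.s * g⁻¹ = d.c := by rw [hh, hg]; group
  have hs : d.s = sp.sec pA := (sp.key).1
  have fI : ∀ k : Fin 4, Fused d (d.ι (swap k.castSucc k.succ)) := by
    intro k
    obtain ⟨l, hl⟩ := isConj_iff.1 (Perm.isConj_swap (show (0 : Fin 5) ≠ 1 by decide)
      (Fin.castSucc_lt_succ (i := k)).ne)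
    rw [← hl, map_mul, map_mul, map_inv]
    exact fused_conj (fused_s' d) _
  have fS : Fused d (sp.sec (swap 2 3)) := by
    obtain ⟨l, hl⟩ := isConj_iff.1 (Perm.isConj_swap (show (3 : Fin 6) ≠ 4 by decide)
      (show (2 : Fin 6) ≠ 3 by decide))
    rw [← hl, map_mul, map_mul, map_inv, show sp.sec (swap 3 4) = s' d from sp.sec_B]
    exact fused_conj (fused_s' d) _
  have get : ∀ a : G, Fused d a → Commute a d.s → a ≠ d.s →
      ∃ q : P6, q.IsSwap ∧ g * a * g⁻¹ = sp.sec q := by
    intro a ha hc hne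
    refine sp.fused_swap (fused_conj ha g) ?_ ?_
    · rw [← hgs]; exact (Commute.conj_iff g).2 hc
    · rw [← hgs]; exact fun e => hne (mul_left_cancel (mul_right_cancel e))
  have nI : ∀ b : Perm (Fin 5), d.ι b ≠ d.s := fun b e =>
    absurd (pair_inj d (a := 1) (b := b) (a' := w3) (b' := 1)
      (by rw [map_one, map_one, one_mul, mul_one]; exact e)).1 (by decide)
  obtain ⟨p, hp, ep⟩ := get _ fS (by
    rw [hs]; show _ * _ = _ * _
    rw [← map_mul, ← map_mul]
    exact congrArg sp.sec (by decide))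
    (by rw [hs]; exact fun e => absurd (sp.sec_inj e) (by decide))
  obtain ⟨r, hr, er⟩ := get (d.ι (swap 1 2)) (fI 1) (d.s_ι _).symm (nI _)
  obtain ⟨m, hm, em⟩ := get (d.ι (swap 2 3)) (fI 2) (d.s_ι _).symm (nI _)
  obtain ⟨e, he, ee⟩ := get d.c (fI 3) (d.s_ι _).symm (nI _)
  have hsec : sp.sec (swap 4 5) = d.ι (swap 1 2) := by
    rw [show (swap 4 5 : P6) = pB * pV by decide, map_mul, sp.sec_B, sp.sec_V]
    show d.ι (swap 0 1) * d.ι t5 = _
    rw [← map_mul]
    exact congrArg d.ι (by decide)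
  have iff' : ∀ {a b : G} {u v : P6}, g * a * g⁻¹ = sp.sec u → g * b * g⁻¹ = sp.sec v →
      (Commute a b ↔ u * v = v * u) := by
    intro a b u v hu hv
    rw [← Commute.conj_iff g, hu, hv]
    exact ⟨fun h => sp.sec_inj (by rw [map_mul, map_mul]; exact h.eq),
      fun h => by show _ * _ = _ * _; rw [← map_mul, ← map_mul, h]⟩
  have ne' : ∀ {a b : G} {u v : P6}, g * a * g⁻¹ = sp.sec u → g * b * g⁻¹ = sp.sec v →
      a ≠ b → u ≠ v := by
    rintro a b u _ hu hv hab rfl
    exact hab (mul_left_cancel (mul_right_cancel (hu.trans hv.symm)))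
  refine (iff' ep em).2 (comm_of_pattern hp hr hm he ((iff' ep er).1 ?_) (ne' ep er ?_)
    ((iff' ep ee).1 (sp.sec_comm _)) (ne' ep ee (sp.sec_ne_c _))
    ((iff' er ee).1 ?_) (ne' er ee ?_) (fun h => ?_) (fun h => ?_))
  · rw [← hsec]; show _ * _ = _ * _
    rw [← map_mul, ← map_mul]
    exact congrArg sp.sec (by decide)
  · rw [← hsec]; exact fun h => absurd (sp.sec_inj h) (by decide)
  · exact (show Commute (swap 1 2 : Perm (Fin 5)) c5 from
      show (swap 1 2 : Perm (Fin 5)) * c5 = c5 * swap 1 2 by decide).map d.ι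
  · exact fun h => absurd (iota_inj d h) (by decide)
  · have h1 := ((iff' er em).2 h).eq
    rw [← map_mul, ← map_mul] at h1
    exact absurd (iota_inj d h1) (by decide)
  · have h1 : d.ι (swap 2 3) * d.ι c5 = d.ι c5 * d.ι (swap 2 3) := ((iff' em ee).2 h).eq
    rw [← map_mul, ← map_mul] at h1
    exact absurd (iota_inj d h1) (by decide)

theorem exists_hom :
    ∃ Φ : Perm (Fin 8) →* G, (∀ q, Φ (j6 q) = sp.sec q) ∧ (∀ b, Φ (j5 b) = d.ι b) ∧
      ∀ a, Φ (j3 a) = d.ιL a := by
  have hs : d.s = sp.sec pA := (sp.key).1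
  have hsecA : sp.sec (swap 1 2) = d.ιL (swap 1 2) := by
    rw [show (swap 1 2 : P6) = pA * pU by decide, map_mul, ← hs, sp.sec_U]
    show d.ιL w3 * d.ιL u3 = _
    rw [← map_mul]
    exact congrArg d.ιL (by decide)
  have hsecB : sp.sec (swap 4 5) = d.ι (swap 1 2) := by
    rw [show (swap 4 5 : P6) = pB * pV by decide, map_mul, sp.sec_B, sp.sec_V]
    show d.ι (swap 0 1) * d.ι t5 = _
    rw [← map_mul]
    exact congrArg d.ι (by decide)
  let t : Fin 7 → G := ![sp.sec (swap 0 1), sp.sec (swap 1 2), sp.sec (swap 2 3), sp.sec (swap 3 4),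
    sp.sec (swap 4 5), d.ι (swap 2 3), d.ι (swap 3 4)]
  have hS : ∀ k : Fin 5, t (Fin.castLE (by norm_num) k) = sp.sec (swap k.castSucc k.succ) := by
    intro k; fin_cases k <;> rfl
  have hI : ∀ k : Fin 4, t (up k) = d.ι (swap k.castSucc k.succ) := by
    intro k
    fin_cases k
    · exact sp.sec_B
    · exact hsecB
    · rfl
    · rfl
  have sq : ∀ i, t i * t i = 1 := by
    intro i
    rcases lt_or_ge (i : ℕ) 5 with h | h
    · rw [show i = Fin.castLE (by norm_num) (⟨i, h⟩ : Fin 5) from rfl, hS, ← map_mul,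
        swap_mul_self, map_one]
    · rw [show i = up ⟨(i : ℕ) - 3, by omega⟩ from
          Fin.ext (by simp [up]; omega), hI, ← map_mul, swap_mul_self, map_one]
  have cross : ∀ i j : Fin 7, (i : ℕ) < 3 → 5 ≤ (j : ℕ) → Commute (t i) (t j) := by
    intro i j hi hj
    obtain rfl | rfl | rfl : i = 0 ∨ i = 1 ∨ i = 2 := by omega
    all_goals obtain rfl | rfl : j = 5 ∨ j = 6 := by omega
    · show Commute (sp.sec pA) (d.ι (swap 2 3))
      rw [← hs]; exact d.s_ι _
    · exact sp.sec_comm _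
    · show Commute (sp.sec (swap 1 2)) (d.ι (swap 2 3))
      rw [hsecA]; exact d.comm _ _
    · exact sp.sec_comm _
    · exact sp.comm_step
    · exact sp.sec_comm _
  have hlift : (CoxeterMatrix.A 7).IsLiftable t := by
    intro i j
    by_cases hlo : (i : ℕ) < 5 ∧ (j : ℕ) < 5
    · obtain ⟨k, rfl⟩ : ∃ k : Fin 5, Fin.castLE (by norm_num) k = i := ⟨⟨i, hlo.1⟩, rfl⟩
      obtain ⟨l, rfl⟩ : ∃ l : Fin 5, Fin.castLE (by norm_num) l = j := ⟨⟨j, hlo.2⟩, rfl⟩
      rw [hS, hS, ← map_mul, ← map_pow]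
      have hM : CoxeterMatrix.A 7 (Fin.castLE (by norm_num) k) (Fin.castLE (by norm_num) l) =
          CoxeterMatrix.A 5 k l := by
        simp only [H63.coxeterA_apply, Fin.ext_iff, Fin.val_castLE]
      rw [hM]
      exact (congrArg sp.sec (H63.adjacent_swaps_isLiftable 5 k l)).trans (map_one _)
    by_cases hhi : 3 ≤ (i : ℕ) ∧ 3 ≤ (j : ℕ)
    · obtain ⟨k, rfl⟩ : ∃ k : Fin 4, up k = i :=
        ⟨⟨(i : ℕ) - 3, by omega⟩, Fin.ext (by simp [up]; omega)⟩
      obtain ⟨l, rfl⟩ : ∃ l : Fin 4, up l = j :=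
        ⟨⟨(j : ℕ) - 3, by omega⟩, Fin.ext (by simp [up]; omega)⟩
      rw [hI, hI, ← map_mul, ← map_pow]
      have hM : CoxeterMatrix.A 7 (up k) (up l) =
          CoxeterMatrix.A 4 k l := by
        simp only [H63.coxeterA_apply, up, Fin.ext_iff, add_left_inj,
          show (l : ℕ) + 3 + 1 = k + 3 ↔ (l : ℕ) + 1 = k by omega,
          show (k : ℕ) + 3 + 1 = l + 3 ↔ (k : ℕ) + 1 = l by omega]
      rw [hM]
      exact (congrArg d.ι (H63.adjacent_swaps_isLiftable 4 k l)).trans (map_one _)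
    have hne : i ≠ j := by rintro rfl; omega
    rw [H63.coxeterA_apply, if_neg hne, if_neg (by omega)]
    have hc : Commute (t i) (t j) := by
      rcases lt_or_ge (i : ℕ) 3 with h | h
      · exact cross i j h (by omega)
      · exact (cross j i (by omega) (by omega)).symm
    rw [hc.mul_pow, pow_two, pow_two, sq, sq, one_mul]
  obtain ⟨cs, hcs⟩ := H63.exists_coxeterSystem_perm 7
  let Φ : Perm (Fin 8) →* G := cs.lift ⟨t, hlift⟩
  have hΦ : ∀ i, Φ (swap i.castSucc i.succ) = t i := fun i => by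
    rw [← hcs i]; exact CoxeterSystem.lift_apply_simple cs hlift i
  have h6 : ∀ q, Φ (j6 q) = sp.sec q := by
    obtain ⟨cs5, hcs5⟩ := H63.exists_coxeterSystem_perm 5
    intro q
    refine DFunLike.congr_fun (cs5.ext_simple (φ₁ := Φ.comp j6) (φ₂ := sp.sec) fun i => ?_) q
    rw [hcs5 i, MonoidHom.comp_apply, j6_adj, hΦ, hS]
  refine ⟨Φ, h6, fun b => ?_, fun a => ?_⟩
  · obtain ⟨cs4, hcs4⟩ := H63.exists_coxeterSystem_perm 4
    refine DFunLike.congr_fun (cs4.ext_simple (φ₁ := Φ.comp j5) (φ₂ := d.ι) fun i => ?_) b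
    rw [hcs4 i, MonoidHom.comp_apply, j5_adj, hΦ, hI]
  · obtain ⟨cs2, hcs2⟩ := H63.exists_coxeterSystem_perm 2
    refine DFunLike.congr_fun (cs2.ext_simple (φ₁ := Φ.comp j3) (φ₂ := d.ιL) fun i => ?_) a
    rw [hcs2 i, MonoidHom.comp_apply, j3_adj, h6]
    fin_cases i
    · exact hs.symm
    · exact hsecA

end Split

/-- **Case one**: the copy of the symmetric group of degree eight. -/
theorem _root_.Cfsg.Agent.H34.SymEight.Data.exists_eightData {G : Type*} [Group G] [Finite G]
    (d : Data G) (π : Subgroup.centralizer ({d.c} : Set G) →* Perm (Fin 6))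
    (hπ : Function.Surjective π) (hker : ∀ x, π x = 1 ↔ (x : G) = 1 ∨ (x : G) = d.c) :
    Nonempty (EightData G) := by
  obtain ⟨sp⟩ := exists_split d π hπ hker
  obtain ⟨T, hTc, -, -⟩ := sp.exists_character
  obtain ⟨Φ, h6, h5, h3⟩ := sp.exists_hom
  have hc : Φ (swap 6 7) = d.c := by rw [← j5_c5, h5]; rfl
  have hinj : Function.Injective Φ := injective_eight Φ (by
    rw [h6, sp.sec_U]; exact fun h => u3_ne_one (iotaL_eq_one d h))
  have hcent : Subgroup.centralizer ({d.c} : Set G) ≤ Φ.range := by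
    intro x hx
    obtain ⟨q, e | e⟩ := sp.exists_cases (Subgroup.mem_centralizer_singleton_iff.1 hx)
    · exact ⟨j6 q, by rw [h6, e]⟩
    · exact ⟨j6 q * swap 6 7, by rw [map_mul, h6, hc, e]⟩
  refine ⟨⟨Φ, hinj, T, hom_eq_sign (T.comp Φ) (a := 6) (b := 7) (by decide)
    (by rw [MonoidHom.comp_apply, hc, hTc]), hc ▸ hcent, ?_, ?_⟩⟩
  · intro g x hx
    rw [hc] at hx
    have hf : Split.Fused d (Φ x) := ⟨g, hx.symm⟩
    have hxx : x * x = 1 := hinj (by
      rw [map_mul, map_one, ← hx]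
      calc _ = g * (d.c * d.c) * g⁻¹ := by group
        _ = 1 := by rw [c_sq]; group)
    have hx1 : x ≠ 1 := by
      rintro rfl
      rw [map_one, conj_eq_one_iff] at hx
      exact c_ne_one d hx
    have move : ∀ a, IsConj a x → Split.Fused d (Φ a) := by
      intro a ha
      obtain ⟨k, rfl⟩ := isConj_iff.1 ha.symm
      rw [map_mul, map_mul, map_inv]
      exact Split.fused_conj hf _
    rcases invol_eight hxx hx1 with h | h | h | h
    · exact h
    · have := move _ h
      rw [h6] at this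
      exact absurd this sp.not_fused_double
    · have := move _ h
      rw [h6] at this
      exact absurd this (sp.not_fused_triple _ (Or.inl rfl))
    · have := move _ h
      rw [map_mul, h6, hc] at this
      exact absurd this (sp.not_fused_triple _ (Or.inr rfl))
  · intro x hx hx1
    have hz : Subgroup.centralizer ({Φ (j6 pU)} : Set G) ≤ Φ.range := by
      intro g hg
      rw [h6, sp.sec_U] at hg
      obtain ⟨i, σ, -, rfl⟩ := d.of_comm_z (Subgroup.mem_centralizer_singleton_iff.1 hg)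
      exact ⟨j6 pU ^ i * j5 σ, by rw [map_mul, map_pow, h6, sp.sec_U, h5]⟩
    have hy : Subgroup.centralizer ({Φ (j6 (pU * pV))} : Set G) ≤ Φ.range := by
      rw [h6, map_mul, sp.sec_U, sp.sec_V]
      exact (d.cy_le.trans d.norm_le_centralizer_c).trans hcent
    have mv : ∀ a, IsConj a x → Subgroup.centralizer ({Φ a} : Set G) ≤ Φ.range →
        Subgroup.centralizer ({Φ x} : Set G) ≤ Φ.range := by
      intro a ha hle g hg
      obtain ⟨k, rfl⟩ := isConj_iff.1 ha
      have h1 := Subgroup.mem_centralizer_singleton_iff.1 hg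
      rw [map_mul, map_mul, map_inv] at h1
      have h2 : (Φ k)⁻¹ * g * Φ k ∈ Subgroup.centralizer ({Φ a} : Set G) := by
        rw [Subgroup.mem_centralizer_singleton_iff]
        calc (Φ k)⁻¹ * g * Φ k * Φ a = (Φ k)⁻¹ * (g * (Φ k * Φ a * (Φ k)⁻¹)) * Φ k := by group
          _ = (Φ k)⁻¹ * (Φ k * Φ a * (Φ k)⁻¹ * g) * Φ k := by rw [h1]
          _ = Φ a * ((Φ k)⁻¹ * g * Φ k) := by group
      obtain ⟨m, hm⟩ := hle h2
      exact ⟨k * m * k⁻¹, by rw [map_mul, map_mul, map_inv, hm]; group⟩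
    rcases three_eight hx hx1 with h | h
    · exact mv _ h hz
    · exact mv _ h hy

end Cfsg.Agent.H91.SymEight
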